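import Cfsg.Agent.H328.Gow.Inner

/-!
# S4891, own characteristic, symplectic groups: isometries adapted to a non-degenerate plane (helper194)

`Symp F` : `F` is a symplectic form; `ND F` : the non-degenerate planes;
`exists_tv`, `exists_rt`, `exists_hp` : isometries preserving a given non-degenerate plane.
-/

set_option autoImplicit false

open scoped ComplexConjugate
open Cfsg

namespace Cfsg.Agent.H194.OC

open Cfsg.Agent.OddOrderCharacters.Clifford Cfsg.Agent.Characters MulAction Module Cfsg.Agent.H53.HC
  Cfsg.Agent.H477.HC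

universe u v

variable {K : Type u} [Field K] {V : Type v} [AddCommGroup V] [Module K V]

/-- a symplectic form -/
structure Symp (F : CForm K V) : Prop where
  sig : ∀ a, F.σ a = a
  quad : ∀ v, F.Q v = 0

/-- the non-degenerate planes -/
def ND (F : CForm K V) : Set (Submodule K V) := {E | finrank K E = 2 ∧ E ⊓ F.perp E = ⊥}

variable {F : CForm K V}

theorem Symp.alt (h : Symp F) (v : V) : F.B v v = 0 := F.alt v (h.quad v)

theorem Symp.neg (h : Symp F) (u v : V) : F.B u v = -F.B v u := by
  have h1 := h.alt (u + v)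
  rw [F.B_add_left, F.B_add_right, F.B_add_right, h.alt, h.alt] at h1
  linear_combination h1

theorem Symp.smul_right (h : Symp F) (a : K) (u v : V) : F.B u (a • v) = a * F.B u v := by
  rw [F.B_smul_right, h.sig]

/-- an isometry from a linear map -/
theorem Symp.exists_iso (h : Symp F) [FiniteDimensional K V] (f : V →ₗ[K] V) (hB : ∀ u v, F.B (f u) (f v) = F.B u v) :
    ∃ g : F.iso, ∀ v, (g : V ≃ₗ[K] V) v = f v :=
  F.exists_iso f hB fun v => by rw [h.quad, h.quad]

/-- two commuting transvections -/
theorem Symp.exists_tv (h : Symp F) [FiniteDimensional K V] {e f : V} (hef : F.B e f = 0) (t : K) :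
    ∃ g : F.iso, ∀ v, (g : V ≃ₗ[K] V) v = v + (t * F.B v e) • e - (t * F.B v f) • f := by
  let φ : V →ₗ[K] V :=
    { toFun := fun v => v + (t * F.B v e) • e - (t * F.B v f) • f
      map_add' := fun x y => by
        rw [F.B_add_left, F.B_add_left]
        module
      map_smul' := fun a x => by
        rw [F.B_smul_left, F.B_smul_left, RingHom.id_apply]
        module }
  refine h.exists_iso φ fun u v => ?_
  change F.B (u + (t * F.B u e) • e - (t * F.B u f) • f) (v + (t * F.B v e) • e - (t * F.B v f) • f) = F.B u v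
  have hfe : F.B f e = 0 := by rw [h.neg, hef, neg_zero]
  simp only [F.B_sub_left, F.B_sub_right, F.B_add_left, F.B_add_right, F.B_smul_left, h.smul_right, h.alt, hef, hfe]
  rw [h.neg e v, h.neg f v]
  ring

/-- a root element -/
theorem Symp.exists_rt (h : Symp F) [FiniteDimensional K V] {w b : V} (hwb : F.B w b = 0) :
    ∃ g : F.iso, ∀ v, (g : V ≃ₗ[K] V) v = v + F.B v b • w + F.B v w • b := by
  let φ : V →ₗ[K] V :=
    { toFun := fun v => v + F.B v b • w + F.B v w • b
      map_add' := fun x y => by
        rw [F.B_add_left, F.B_add_left]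
        module
      map_smul' := fun a x => by
        rw [F.B_smul_left, F.B_smul_left, RingHom.id_apply]
        module }
  refine h.exists_iso φ fun u v => ?_
  change F.B (u + F.B u b • w + F.B u w • b) (v + F.B v b • w + F.B v w • b) = F.B u v
  have hbw : F.B b w = 0 := by rw [h.neg, hwb, neg_zero]
  simp only [F.B_add_left, F.B_add_right, F.B_smul_left, h.smul_right, h.alt, hwb, hbw]
  rw [h.neg w v, h.neg b v]
  ring

/-- a semisimple element of a hyperbolic plane -/
theorem Symp.exists_hp (h : Symp F) [FiniteDimensional K V] {e f : V} (hef : F.B e f = 1) {a : K} (ha : a ≠ 0) :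
    ∃ g : F.iso, ∀ v, (g : V ≃ₗ[K] V) v = v + ((a - 1) * F.B v f) • e - ((a⁻¹ - 1) * F.B v e) • f := by
  let φ : V →ₗ[K] V :=
    { toFun := fun v => v + ((a - 1) * F.B v f) • e - ((a⁻¹ - 1) * F.B v e) • f
      map_add' := fun x y => by
        rw [F.B_add_left, F.B_add_left]
        module
      map_smul' := fun c x => by
        rw [F.B_smul_left, F.B_smul_left, RingHom.id_apply]
        module }
  refine h.exists_iso φ fun u v => ?_
  change F.B (u + ((a - 1) * F.B u f) • e - ((a⁻¹ - 1) * F.B u e) • f)
    (v + ((a - 1) * F.B v f) • e - ((a⁻¹ - 1) * F.B v e) • f) = F.B u v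
  have hfe : F.B f e = -1 := by rw [h.neg, hef]
  simp only [F.B_sub_left, F.B_sub_right, F.B_add_left, F.B_add_right, F.B_smul_left, h.smul_right, h.alt, hef, hfe]
  rw [h.neg e v, h.neg f v]
  have h2 : a * a⁻¹ = 1 := mul_inv_cancel₀ ha
  linear_combination (F.B u e * F.B v f - F.B v e * F.B u f) * h2

/-- decomposition along a non-degenerate plane -/
theorem exists_dec [FiniteDimensional K V] {E : Submodule K V} (hE : E ∈ ND F) (v : V) :
    ∃ e ∈ E, v - e ∈ F.perp E := by
  obtain ⟨b, hb, h1⟩ := F.exists_pair E E ((F.lf v).comp E.subtype) (fun a ha => by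
    have h2 : (a : V) ∈ E ⊓ F.perp E := ⟨a.2, fun w hw => ha w hw⟩
    rw [hE.2] at h2
    change F.B a v = 0
    rw [(Submodule.mem_bot K).1 h2, F.B_zero_left])
  refine ⟨b, hb, fun w hw => ?_⟩
  have h2 := h1 ⟨w, hw⟩
  change F.B w v = F.B w b at h2
  apply F.B_eq_zero
  rw [F.B_sub_right, h2, sub_self]

end Cfsg.Agent.H194.OC
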